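import Mathlib
import Cfsg.Agent.Lib.Helper61.QB.Defs

set_option autoImplicit false

namespace Cfsg.Agent.Lib.Helper98.QB

open Cfsg.Agent.Lib.Helper61.QB

universe u

variable {q p : ℕ} [Fact q.Prime] [Fact p.Prime] {V : Type u} [AddCommGroup V] [Module (ZMod q) V]
  [Finite V]

/-- [X7a] -/
theorem semireg_of_comm {P : Subgroup (V ≃ₗ[ZMod q] V)} (hirr : Irr P)
    (hcomm : ∀ x ∈ P, ∀ y ∈ P, x * y = y * x) : Semireg P := by
  intro π hπ hπ1 v hv
  let W : Submodule (ZMod q) V := LinearMap.ker ((π : V →ₗ[ZMod q] V) - LinearMap.id)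
  have hmem : ∀ w, w ∈ W ↔ π w = w := by
    intro w
    simp [W, LinearMap.mem_ker, sub_eq_zero]
  rcases hirr W (fun y hy w hw => by
      rw [hmem] at hw ⊢
      have h1 := congrArg (fun f : V ≃ₗ[ZMod q] V => f w) (hcomm π hπ y hy)
      simp only [LinearEquiv.mul_apply] at h1
      rw [h1, hw]) with h | h
  · have h2 : v ∈ W := (hmem v).2 hv
    rw [h] at h2
    simpa using h2
  · exfalso
    apply hπ1
    ext w
    exact (hmem w).1 (h ▸ Submodule.mem_top)

end Cfsg.Agent.Lib.Helper98.QB
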