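import Mathlib
import Cfsg.Agent.Lib.Helper61.QB.Defs

set_option autoImplicit false

namespace Cfsg.Agent.Lib.Helper98.QB

open Cfsg.Agent.Lib.Helper61.QB

universe u

variable {q p : ℕ} [Fact q.Prime] [Fact p.Prime] {V : Type u} [AddCommGroup V] [Module (ZMod q) V]
  [Finite V]

/-- the Sylow subgroup of `↥A` attached to `SylIn p P A` -/
lemma exists_sylow_of_sylIn {G : Type*} [Group G] {A P : Subgroup G} (hP : SylIn p P A) :
    ∃ P' : Sylow p A, (P' : Subgroup A) = P.subgroupOf A := by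
  have h1 : IsPGroup p (P.subgroupOf A) := hP.2.1.comap_subtype
  have h2 : ¬ p ∣ (P.subgroupOf A).index :=
    (Nat.Prime.coprime_iff_not_dvd Fact.out).1 hP.2.2.symm
  exact ⟨h1.toSylow h2, IsPGroup.toSylow_coe h1 h2⟩

/-- a `p`-element of `A` normalising the Sylow subgroup `P` lies in `P` -/
lemma mem_of_pElement_normalizing {G : Type*} [Group G] {A P : Subgroup G} (hP : SylIn p P A)
    (h : G) (hA : h ∈ A) (k : ℕ) (hk : h ^ p ^ k = 1) (hn : ∀ π ∈ P, h * π * h⁻¹ ∈ P)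
    (hn' : ∀ π ∈ P, h⁻¹ * π * h ∈ P) : h ∈ P := by
  obtain ⟨P', hP'⟩ := exists_sylow_of_sylIn hP
  set h' : A := ⟨h, hA⟩ with hh'
  have hpg : IsPGroup p (Subgroup.zpowers h') := by
    rintro ⟨x, hx⟩
    obtain ⟨i, rfl⟩ := Subgroup.mem_zpowers_iff.1 hx
    refine ⟨k, Subtype.ext ?_⟩
    have h3 : h' ^ p ^ k = 1 := Subtype.ext (by simpa using hk)
    change (h' ^ i) ^ p ^ k = 1
    rw [← zpow_natCast, ← zpow_mul, mul_comm, zpow_mul, zpow_natCast, h3, one_zpow]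
  have h4 := hpg.inf_normalizer_sylow P'
  have hmemP' : ∀ x : A, x ∈ P' ↔ (x : G) ∈ P := by
    intro x
    have h0 : x ∈ P' ↔ x ∈ (P' : Subgroup A) := Iff.rfl
    rw [h0, hP', Subgroup.mem_subgroupOf]
  have h5 : h' ∈ Subgroup.zpowers h' ⊓ Subgroup.normalizer (P' : Set A) := by
    refine Subgroup.mem_inf.2 ⟨Subgroup.mem_zpowers h', ?_⟩
    rw [Subgroup.mem_set_normalizer_iff]
    intro x
    rw [SetLike.mem_coe, SetLike.mem_coe, hmemP', hmemP']
    constructor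
    · intro hx
      simpa using hn _ hx
    · intro hx
      have := hn' _ hx
      simpa [hh', mul_assoc] using this
  rw [h4] at h5
  have h6 : h' ∈ (P' : Subgroup A) := (Subgroup.mem_inf.1 h5).2
  exact (hmemP' h').1 h6

lemma conj_pow_zpow {G : Type*} [Group G] (g π : G) (k : ℤ) (h : g * π * g⁻¹ = π ^ k) (j : ℕ) :
    g ^ j * π * (g ^ j)⁻¹ = π ^ (k ^ j) := by
  induction j with
  | zero => simp
  | succ j ih =>
    have h1 : g ^ (j + 1) * π * (g ^ (j + 1))⁻¹ = g * (g ^ j * π * (g ^ j)⁻¹) * g⁻¹ := by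
      rw [pow_succ']
      group
    rw [h1, ih]
    have h2 : g * π ^ (k ^ j) * g⁻¹ = (g * π * g⁻¹) ^ (k ^ j) := by
      rw [conj_zpow]
    rw [h2, h, ← zpow_mul, pow_succ']

/-- [X7c] -/
theorem normalizer_centralizes {G : Type*} [Group G] {A P : Subgroup G} [Finite A]
    (hP : SylIn p P A) (hcyc : IsCyclic P) (z : G) (hz : z ∈ P) (hz1 : z ≠ 1)
    (hzc : ∀ a ∈ A, a * z = z * a) :
    ∀ g ∈ A, (∀ π ∈ P, g * π * g⁻¹ ∈ P) → ∀ π ∈ P, g * π = π * g := by
  intro g hg hn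
  have hp : p.Prime := Fact.out
  have hfinP : Finite P := Finite.of_injective (Subgroup.inclusion hP.1)
    (Subgroup.inclusion_injective hP.1)
  obtain ⟨π₀, hπ₀⟩ := hcyc.exists_generator
  set π : G := (π₀ : G) with hπdef
  have hπP : π ∈ P := π₀.2
  have hgen : ∀ x ∈ P, ∃ e : ℤ, π ^ e = x := by
    intro x hx
    obtain ⟨e, he⟩ := Subgroup.mem_zpowers_iff.1 (hπ₀ ⟨x, hx⟩)
    exact ⟨e, by simpa using congrArg Subtype.val he⟩
  -- enough: `g` commutes with `π`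
  suffices hcomm : g * π = π * g by
    intro x hx
    obtain ⟨e, rfl⟩ := hgen x hx
    exact ((show Commute g π from hcomm).zpow_right e)
  obtain ⟨m, hm⟩ : ∃ m, orderOf π = p ^ m := by
    obtain ⟨m, hm⟩ := hP.2.1 π₀
    have h1 : π ^ p ^ m = 1 := by simpa using congrArg Subtype.val hm
    obtain ⟨j, -, hj⟩ := (Nat.dvd_prime_pow hp).1 (orderOf_dvd_of_pow_eq_one h1)
    exact ⟨j, hj⟩
  obtain ⟨k, hk⟩ := hgen _ (hn π hπP)
  obtain ⟨e, he⟩ := hgen z hz
  -- `p ∣ k - 1`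
  have h1 : ((p ^ m : ℕ) : ℤ) ∣ e * (k - 1) := by
    rw [← hm, orderOf_dvd_iff_zpow_eq_one]
    have h2 : g * z * g⁻¹ = z := by rw [hzc g hg]; group
    rw [← he, ← conj_zpow, ← hk, ← zpow_mul] at h2
    rw [mul_sub, mul_one, zpow_sub, mul_comm e k, h2]
    group
  have h3 : ¬ ((p ^ m : ℕ) : ℤ) ∣ e := by
    intro h
    rw [← hm, orderOf_dvd_iff_zpow_eq_one, he] at h
    exact hz1 h
  have h4 : (p : ℤ) ∣ k - 1 := by
    by_contra hnd
    have hpi : Prime (p : ℤ) := Nat.prime_iff_prime_int.1 hp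
    have hco : IsCoprime ((p ^ m : ℕ) : ℤ) (k - 1) := by
      push_cast
      exact IsCoprime.pow_left ((Prime.coprime_iff_not_dvd hpi).2 hnd)
    exact h3 (hco.dvd_of_dvd_mul_right h1)
  have h5 : ((p ^ m : ℕ) : ℤ) ∣ k ^ p ^ m - 1 := by
    have h6 := dvd_sub_pow_of_dvd_sub h4 m
    rw [one_pow] at h6
    refine Dvd.dvd.trans ?_ h6
    push_cast
    exact pow_dvd_pow _ (Nat.le_succ m)
  -- `g ^ (p ^ m)` commutes with `π`
  have h7 : g ^ p ^ m * π * (g ^ p ^ m)⁻¹ = π := by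
    rw [conj_pow_zpow g π k hk.symm]
    have h5' : (orderOf π : ℤ) ∣ k ^ p ^ m - 1 := hm ▸ h5
    rw [orderOf_dvd_iff_zpow_eq_one, zpow_sub, zpow_one] at h5'
    exact mul_inv_eq_one.1 h5'
  have h7' : Commute (g ^ p ^ m) π := by
    have : g ^ p ^ m * π = π * g ^ p ^ m := by
      rw [← mul_inv_eq_iff_eq_mul]; exact h7
    exact this
  -- the `p`-part
  have hfo : IsOfFinOrder g := by
    have h0 : IsOfFinOrder (⟨g, hg⟩ : A) := isOfFinOrder_of_finite _
    obtain ⟨n, hn0, hn1⟩ := isOfFinOrder_iff_pow_eq_one.1 h0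
    exact isOfFinOrder_iff_pow_eq_one.2 ⟨n, hn0, by simpa using congrArg Subtype.val hn1⟩
  obtain ⟨a, r, hr, har⟩ := Nat.exists_eq_pow_mul_and_not_dvd (orderOf_pos_iff.2 hfo).ne' p
    hp.ne_one
  have h8 : (g ^ r) ^ p ^ a = 1 := by
    rw [← pow_mul, mul_comm, ← har, pow_orderOf_eq_one]
  -- `g⁻¹` normalises `P` as well
  have hn' : ∀ x ∈ P, g⁻¹ * x * g ∈ P := by
    intro x hx
    have hinj : Function.Injective (fun y : P => (⟨g * y * g⁻¹, hn y y.2⟩ : P)) := by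
      intro y y' h
      have := congrArg Subtype.val h
      simp only [mul_left_inj, mul_right_inj] at this
      exact Subtype.ext this
    obtain ⟨y, hy⟩ := (Finite.injective_iff_surjective.1 hinj) ⟨x, hx⟩
    have h9 : g * y * g⁻¹ = x := congrArg Subtype.val hy
    rw [← h9]
    have : g⁻¹ * (g * ↑y * g⁻¹) * g = y := by group
    rw [this]
    exact y.2
  have hnr : ∀ j : ℕ, ∀ x ∈ P, g ^ j * x * (g ^ j)⁻¹ ∈ P := by
    intro j
    induction j with
    | zero => intro x hx; simpa using hx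
    | succ j ih =>
      intro x hx
      have : g ^ (j + 1) * x * (g ^ (j + 1))⁻¹ = g * (g ^ j * x * (g ^ j)⁻¹) * g⁻¹ := by
        rw [pow_succ']; group
      rw [this]
      exact hn _ (ih x hx)
  have hnr' : ∀ j : ℕ, ∀ x ∈ P, (g ^ j)⁻¹ * x * (g ^ j) ∈ P := by
    intro j
    induction j with
    | zero => intro x hx; simpa using hx
    | succ j ih =>
      intro x hx
      have : (g ^ (j + 1))⁻¹ * x * (g ^ (j + 1)) = g⁻¹ * ((g ^ j)⁻¹ * x * (g ^ j)) * g := by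
        rw [pow_succ]; group
      rw [this]
      exact hn' _ (ih x hx)
  have h10 : g ^ r ∈ P := mem_of_pElement_normalizing hP (g ^ r) (A.pow_mem hg r) a h8 (hnr r)
    (hnr' r)
  have h11 : Commute (g ^ r) π := by
    obtain ⟨e', he'⟩ := hgen _ h10
    rw [← he']
    exact (Commute.refl π).zpow_left e'
  -- Bezout
  have hco : IsCoprime (r : ℤ) ((p ^ m : ℕ) : ℤ) := by
    rw [Nat.isCoprime_iff_coprime]
    exact Nat.Coprime.pow_right m ((Nat.Prime.coprime_iff_not_dvd hp).2 hr).symm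
  obtain ⟨x, y, hxy⟩ := hco
  have h12 : g = (g ^ r) ^ x * (g ^ p ^ m) ^ y := by
    rw [← zpow_natCast g r, ← zpow_natCast g (p ^ m), ← zpow_mul, ← zpow_mul, ← zpow_add,
      mul_comm (r : ℤ), mul_comm ((p ^ m : ℕ) : ℤ), hxy, zpow_one]
  have h13 : Commute g π := by
    rw [h12]
    exact (h11.zpow_left x).mul_left (h7'.zpow_left y)
  exact h13

end Cfsg.Agent.Lib.Helper98.QB
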