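import Mathlib
import Cfsg.Agent.Lib.Helper61.QB.Defs
import Cfsg.Agent.Lib.Helper63.QB.X1
import Cfsg.Agent.Lib.Helper98.QB.X7c

set_option autoImplicit false

namespace Cfsg.Agent.Lib.Helper98.QB

open Cfsg.Agent.Lib.Helper61.QB

universe u

variable {q p : ℕ} [Fact q.Prime] [Fact p.Prime] {V : Type u} [AddCommGroup V] [Module (ZMod q) V]
  [Finite V]

/-- Burnside's normal complement, for subgroups of an ambient group -/
lemma burnside_aux {G : Type*} [Group G] {A P : Subgroup G} [Finite A] (hP : SylIn p P A)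
    (hNC : ∀ g ∈ A, (∀ π ∈ P, g * π * g⁻¹ ∈ P) → ∀ π ∈ P, g * π = π * g) :
    ∃ N : Subgroup G, NormIn N A ∧ (Nat.card N).Coprime p ∧ (N = ⊥ → A = P) := by
  obtain ⟨P', hP'⟩ := exists_sylow_of_sylIn hP
  have hmemP' : ∀ x : A, x ∈ P' ↔ (x : G) ∈ P := by
    intro x
    have h0 : x ∈ P' ↔ x ∈ (P' : Subgroup A) := Iff.rfl
    rw [h0, hP', Subgroup.mem_subgroupOf]
  have hle : Subgroup.normalizer (P' : Set A) ≤ Subgroup.centralizer (P' : Set A) := by
    intro g hg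
    rw [Subgroup.mem_set_normalizer_iff] at hg
    rw [Subgroup.mem_centralizer_iff]
    intro x hx
    have h1 := hNC g g.2 (fun π hπ => by
      have h2 := (hg ⟨π, hP.1 hπ⟩).1 ((hmemP' _).2 hπ)
      exact (hmemP' _).1 h2) x ((hmemP' x).1 hx)
    exact Subtype.ext h1.symm
  obtain ⟨K, hKn, hc⟩ : ∃ K : Subgroup A, K.Normal ∧ K.IsComplement' (P' : Subgroup A) :=
    ⟨_, MonoidHom.normal_ker _, MonoidHom.ker_transferSylow_isComplement' P' hle⟩
  have hidx : (P' : Subgroup A).index = Nat.card K := hc.index_eq_card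
  have hcop : (Nat.card K).Coprime p := by
    rw [← hidx]
    exact ((Nat.Prime.coprime_iff_not_dvd Fact.out).2 P'.not_dvd_index).symm
  have hcard : Nat.card (K.map A.subtype) = Nat.card K :=
    Subgroup.card_map_of_injective A.subtype_injective
  refine ⟨K.map A.subtype, ⟨Subgroup.map_subtype_le _, ?_⟩, hcard ▸ hcop, fun hbot => ?_⟩
  · rintro a ha _ ⟨k, hk, rfl⟩
    exact ⟨⟨a, ha⟩ * k * ⟨a, ha⟩⁻¹, hKn.conj_mem k hk _, by simp⟩
  · have hKbot : K = ⊥ := (Subgroup.map_eq_bot_iff_of_injective K A.subtype_injective).1 hbot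
    have htop : (P' : Subgroup A) = ⊤ := by
      rw [← Subgroup.index_eq_one, hidx, hKbot]
      simp
    refine le_antisymm (fun a ha => (hmemP' ⟨a, ha⟩).1 ?_) hP.1
    have h0 : (⟨a, ha⟩ : A) ∈ (P' : Subgroup A) := by rw [htop]; trivial
    exact h0

/-- [X7b] -/
theorem eq_of_normalizer_le_centralizer {A P : Subgroup (V ≃ₗ[ZMod q] V)} (hA : Good q p A)
    (hP : SylIn p P A)
    (hNC : ∀ g ∈ A, (∀ π ∈ P, g * π * g⁻¹ ∈ P) → ∀ π ∈ P, g * π = π * g) : A = P := by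
  obtain ⟨N, hN, hcop, h⟩ := burnside_aux hP hNC
  exact h (Cfsg.Agent.Lib.Helper63.QB.eq_bot_of_normIn_coprime hA hN hcop)

end Cfsg.Agent.Lib.Helper98.QB
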