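import Mathlib
import Cfsg.Agent.Lib.Helper61.QB.Defs
import Cfsg.Agent.Lib.Helper63.QB.X1
import Cfsg.Agent.Lib.Helper98.QB.X7b

set_option autoImplicit false

namespace Cfsg.Agent.Lib.Helper98.QB

open Cfsg.Agent.Lib.Helper61.QB

universe u

variable {q p : ℕ} [Fact q.Prime] [Fact p.Prime] {V : Type u} [AddCommGroup V] [Module (ZMod q) V]
  [Finite V]

lemma comm_conj {G : Type*} [Group G] {A : Subgroup G} (z : G)
    (hzn : ∀ a ∈ A, a * z * a⁻¹ ∈ Subgroup.zpowers z) (a : G) (ha : a ∈ A) (b : G) (hb : b ∈ A)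
    (x : G) (hx : x ∈ Subgroup.zpowers z) :
    a * (b * x * b⁻¹) * a⁻¹ = b * (a * x * a⁻¹) * b⁻¹ := by
  obtain ⟨i, hi⟩ := Subgroup.mem_zpowers_iff.1 (hzn a ha)
  obtain ⟨j, hj⟩ := Subgroup.mem_zpowers_iff.1 (hzn b hb)
  obtain ⟨n, rfl⟩ := Subgroup.mem_zpowers_iff.1 hx
  have h1 : ∀ m : ℤ, a * z ^ m * a⁻¹ = z ^ (i * m) := by
    intro m
    rw [← conj_zpow, ← hi, ← zpow_mul]
  have h2 : ∀ m : ℤ, b * z ^ m * b⁻¹ = z ^ (j * m) := by
    intro m
    rw [← conj_zpow, ← hj, ← zpow_mul]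
  rw [h2, h1, h1, h2]
  congr 1
  ring

lemma normIn_cent {G : Type*} [Group G] {A : Subgroup G} (z : G)
    (hzn : ∀ a ∈ A, a * z * a⁻¹ ∈ Subgroup.zpowers z) :
    NormIn (A ⊓ Subgroup.centralizer {z}) A := by
  refine ⟨inf_le_left, fun a ha c hc => ?_⟩
  obtain ⟨hcA, hcz⟩ := Subgroup.mem_inf.1 hc
  refine Subgroup.mem_inf.2 ⟨A.mul_mem (A.mul_mem ha hcA) (A.inv_mem ha), ?_⟩
  rw [Subgroup.mem_centralizer_singleton_iff] at hcz ⊢
  obtain ⟨i, hi⟩ := Subgroup.mem_zpowers_iff.1 (hzn a⁻¹ (A.inv_mem ha))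
  rw [inv_inv] at hi
  have h1 : Commute c (a⁻¹ * z * a) := by
    rw [← hi]
    exact (show Commute c z from hcz).zpow_right i
  have h2 : c * (a⁻¹ * z * a) = (a⁻¹ * z * a) * c := h1
  calc a * c * a⁻¹ * z = a * (c * (a⁻¹ * z * a)) * a⁻¹ := by group
    _ = a * ((a⁻¹ * z * a) * c) * a⁻¹ := by rw [h2]
    _ = z * (a * c * a⁻¹) := by group

lemma solvable_aux {G : Type*} [Group G] {A : Subgroup G} (z : G)
    (hzn : ∀ a ∈ A, a * z * a⁻¹ ∈ Subgroup.zpowers z)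
    (hC : Group.IsSolvable (A ⊓ Subgroup.centralizer {z} : Subgroup G)) : Group.IsSolvable A := by
  have hle : A ⊓ Subgroup.centralizer {z} ≤ A := inf_le_left
  refine Group.isSolvable_of_ker_le_range (Subgroup.inclusion hle)
    (Abelianization.of : A →* Abelianization A) ?_
  rw [Abelianization.ker_of, _root_.commutator_def, Subgroup.commutator_le]
  rintro ⟨a, ha⟩ - ⟨b, hb⟩ -
  have hmem : a * b * a⁻¹ * b⁻¹ ∈ A ⊓ Subgroup.centralizer {z} := by
    refine Subgroup.mem_inf.2 ⟨?_, ?_⟩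
    · exact A.mul_mem (A.mul_mem (A.mul_mem ha hb) (A.inv_mem ha)) (A.inv_mem hb)
    · rw [Subgroup.mem_centralizer_singleton_iff]
      have hx : b⁻¹ * z * b ∈ Subgroup.zpowers z := by
        have := hzn b⁻¹ (A.inv_mem hb)
        rwa [inv_inv] at this
      have h1 := comm_conj z hzn b hb a⁻¹ (A.inv_mem ha) _ hx
      rw [inv_inv] at h1
      have h2 : b * (b⁻¹ * z * b) * b⁻¹ = z := by group
      rw [h2] at h1
      have h3 : (a * b * a⁻¹ * b⁻¹) * z * (a * b * a⁻¹ * b⁻¹)⁻¹ =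
          a * (b * (a⁻¹ * (b⁻¹ * z * b) * a) * b⁻¹) * a⁻¹ := by
        group
      have h4 : (a * b * a⁻¹ * b⁻¹) * z * (a * b * a⁻¹ * b⁻¹)⁻¹ = z := by
        rw [h3, h1]; group
      rw [← mul_inv_eq_iff_eq_mul]
      exact h4
  rw [commutatorElement_def]
  exact ⟨⟨a * b * a⁻¹ * b⁻¹, hmem⟩, Subtype.ext rfl⟩

/-- [X7d] -/
theorem solvable_of_normal_order_p {A P : Subgroup (V ≃ₗ[ZMod q] V)} (hA : Good q p A)
    (ih : IH.{u} q p (Nat.card V + Nat.card A)) (hP : SylIn p P A) (hcyc : IsCyclic P)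
    (z : V ≃ₗ[ZMod q] V) (hz : z ∈ P) (hz1 : z ≠ 1)
    (hzn : ∀ a ∈ A, a * z * a⁻¹ ∈ Subgroup.zpowers z) : Group.IsSolvable A := by
  have hCn := normIn_cent z hzn
  by_cases hCA : A ⊓ Subgroup.centralizer {z} = A
  · have hzc : ∀ a ∈ A, a * z = z * a := by
      intro a ha
      have h1 : a ∈ A ⊓ Subgroup.centralizer {z} := by rw [hCA]; exact ha
      exact Subgroup.mem_centralizer_singleton_iff.1 (Subgroup.mem_inf.1 h1).2
    have hAP := eq_of_normalizer_le_centralizer hA hP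
      (normalizer_centralizes hP hcyc z hz hz1 hzc)
    rw [hAP]
    have hc := hcyc.isMulCommutative
    exact Group.isSolvable_of_comm (fun x y => mul_comm' x y)
  · apply solvable_aux z hzn
    have hlt : A ⊓ Subgroup.centralizer {z} < A := lt_of_le_of_ne inf_le_left hCA
    have hcl : Nat.card (A ⊓ Subgroup.centralizer {z} : Subgroup (V ≃ₗ[ZMod q] V)) < Nat.card A := by
      have := Set.ncard_lt_ncard (SetLike.coe_ssubset_coe.2 hlt) (Set.toFinite _)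
      rw [← Nat.card_coe_set_eq, ← Nat.card_coe_set_eq] at this
      exact this
    exact ih V _ (Cfsg.Agent.Lib.Helper63.QB.good_of_normIn hA hCn) (by omega)

end Cfsg.Agent.Lib.Helper98.QB
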