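import Mathlib
import Cfsg.Agent.Lib.Helper61.QB.Defs
import Cfsg.Agent.Lib.Helper63.QB.X1
import Cfsg.Agent.Lib.Helper98.QB.X7c

set_option autoImplicit false

namespace Cfsg.Agent.Lib.Helper98.QB

open Cfsg.Agent.Lib.Helper61.QB

universe u

variable {q p : ℕ} [Fact q.Prime] [Fact p.Prime] {V : Type u} [AddCommGroup V] [Module (ZMod q) V]
  [Finite V]

/-- a normal `p`-subgroup lies in the Sylow subgroup -/
lemma le_of_normIn_pgroup {G : Type*} [Group G] {A P M : Subgroup G} (hP : SylIn p P A)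
    (hM : NormIn M A) (hMp : IsPGroup p M) : M ≤ P := by
  obtain ⟨P', hP'⟩ := exists_sylow_of_sylIn hP
  have hn : (M.subgroupOf A).Normal := ⟨fun n hn a => hM.2 a.1 a.2 n.1 hn⟩
  have hMp' : IsPGroup p (M.subgroupOf A) := hMp.comap_subtype
  have h1 : IsPGroup p ((P' : Subgroup A) ⊔ M.subgroupOf A : Subgroup A) :=
    P'.2.to_sup_of_normal_right hMp'
  have h2 := P'.3 h1 le_sup_left
  intro x hx
  have h3 : (⟨x, hM.1 hx⟩ : A) ∈ (P' : Subgroup A) := by
    rw [← h2]
    exact Subgroup.mem_sup_right (Subgroup.mem_subgroupOf.2 hx)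
  rw [hP', Subgroup.mem_subgroupOf] at h3
  exact h3

lemma normIn_commutator {G : Type*} [Group G] {A N : Subgroup G} (hN : NormIn N A) :
    NormIn ⁅N, N⁆ A := by
  have hle : ⁅N, N⁆ ≤ N := Subgroup.commutator_le.2 (fun x hx y hy =>
    N.mul_mem (N.mul_mem (N.mul_mem hx hy) (N.inv_mem hx)) (N.inv_mem hy))
  refine ⟨hle.trans hN.1, fun a ha n hn => ?_⟩
  have h1 : N.map (MulAut.conj a).toMonoidHom ≤ N := by
    rintro _ ⟨x, hx, rfl⟩
    exact hN.2 a ha x hx
  have h2 : (⁅N, N⁆).map (MulAut.conj a).toMonoidHom ≤ ⁅N, N⁆ := by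
    rw [Subgroup.map_commutator]
    exact Subgroup.commutator_mono h1 h1
  exact h2 ⟨n, hn, rfl⟩

/-- a solvable normal subgroup `≠ 1` gives a normal `p`-subgroup `≠ 1`, if there are no normal
`p'`-subgroups -/
lemma exists_normal_pgroup {G : Type*} [Group G] {A : Subgroup G} [Finite A]
    (hcop : ∀ N : Subgroup G, NormIn N A → (Nat.card N).Coprime p → N = ⊥) :
    ∀ (n : ℕ) (N : Subgroup G), Nat.card N = n → NormIn N A → N ≠ ⊥ → Group.IsSolvable N →
      ∃ M : Subgroup G, NormIn M A ∧ M ≠ ⊥ ∧ IsPGroup p M := by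
  intro n
  induction n using Nat.strong_induction_on with
  | _ n ih =>
    intro N hcard hN hN1 hNs
    have hp : p.Prime := Fact.out
    have hfinN : Finite N := Finite.of_injective (Subgroup.inclusion hN.1)
      (Subgroup.inclusion_injective hN.1)
    have hle : ⁅N, N⁆ ≤ N := Subgroup.commutator_le.2 (fun x hx y hy =>
      N.mul_mem (N.mul_mem (N.mul_mem hx hy) (N.inv_mem hx)) (N.inv_mem hy))
    by_cases hc : ⁅N, N⁆ = ⊥
    · -- `N` is abelian
      have hcomm : ∀ x ∈ N, ∀ y ∈ N, Commute x y := by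
        intro x hx y hy
        have h1 := Subgroup.commutator_eq_bot_iff_le_centralizer.1 hc hx
        exact (Subgroup.mem_centralizer_iff.1 h1 y hy).symm
      obtain ⟨a, r, hr, har⟩ := Nat.exists_eq_pow_mul_and_not_dvd (Nat.card_pos (α := N)).ne' p
        hp.ne_one
      let M₀ : Subgroup G :=
        { carrier := {x | x ∈ N ∧ x ^ r = 1}
          one_mem' := ⟨N.one_mem, one_pow r⟩
          mul_mem' := by
            rintro x y ⟨hx, hx'⟩ ⟨hy, hy'⟩
            exact ⟨N.mul_mem hx hy, by rw [(hcomm x hx y hy).mul_pow, hx', hy', one_mul]⟩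
          inv_mem' := by
            rintro x ⟨hx, hx'⟩
            exact ⟨N.inv_mem hx, by rw [inv_pow, hx', inv_one]⟩ }
      have hM₀mem : ∀ x, x ∈ M₀ ↔ x ∈ N ∧ x ^ r = 1 := fun x => Iff.rfl
      have hM₀N : M₀ ≤ N := fun x hx => hx.1
      have hM₀ : NormIn M₀ A := by
        refine ⟨hM₀N.trans hN.1, fun a ha x hx => ?_⟩
        rw [hM₀mem] at hx ⊢
        exact ⟨hN.2 a ha x hx.1, by rw [conj_pow, hx.2]; simp⟩
      have hfinM : Finite M₀ := Finite.of_injective (Subgroup.inclusion hM₀N)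
        (Subgroup.inclusion_injective hM₀N)
      have hM₀c : (Nat.card M₀).Coprime p := by
        rw [Nat.coprime_comm, Nat.Prime.coprime_iff_not_dvd hp]
        intro hdvd
        obtain ⟨x, hx⟩ := exists_prime_orderOf_dvd_card' p hdvd
        have h1 : (x : G) ^ r = 1 := x.2.2
        have h2 : orderOf (x : G) = p := by rw [Subgroup.orderOf_coe, hx]
        exact hr (h2 ▸ orderOf_dvd_of_pow_eq_one h1)
      have hM₀bot := hcop M₀ hM₀ hM₀c
      refine ⟨N, hN, hN1, ?_⟩
      rintro ⟨x, hx⟩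
      refine ⟨a, Subtype.ext ?_⟩
      have h1 : x ^ p ^ a ∈ M₀ := by
        refine ⟨N.pow_mem hx _, ?_⟩
        rw [← pow_mul, ← har]
        have h2 : (⟨x, hx⟩ : N) ^ Nat.card N = 1 := pow_card_eq_one'
        have h3 := congrArg Subtype.val h2
        rw [Subgroup.coe_pow, Subgroup.coe_one] at h3
        exact h3
      rw [hM₀bot, Subgroup.mem_bot] at h1
      simpa using h1
    · -- induction
      have hlt : ⁅N, N⁆ < N := by
        refine lt_of_le_of_ne hle (fun heq => ?_)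
        have hnt : Nontrivial N := (Subgroup.nontrivial_iff_ne_bot N).2 hN1
        have h1 := Group.IsSolvable.commutator_lt_top_of_nontrivial N
        apply h1.ne
        apply Subgroup.map_injective N.subtype_injective
        rw [Subgroup.map_subtype_commutator, heq, ← MonoidHom.range_eq_map, N.range_subtype]
      have hcl : Nat.card (⁅N, N⁆ : Subgroup G) < n := by
        rw [← hcard]
        have := Set.ncard_lt_ncard (SetLike.coe_ssubset_coe.2 hlt) (Set.toFinite _)
        rw [← Nat.card_coe_set_eq, ← Nat.card_coe_set_eq] at this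
        exact this
      have hs : Group.IsSolvable (⁅N, N⁆ : Subgroup G) :=
        Group.isSolvable_of_isSolvable_injective (f := Subgroup.inclusion hle)
          (Subgroup.inclusion_injective hle)
      exact ih _ hcl _ rfl (normIn_commutator hN) hc hs

/-- [X7e] -/
theorem exists_normal_order_p {A P N : Subgroup (V ≃ₗ[ZMod q] V)} (hA : Good q p A)
    (hP : SylIn p P A) (hcyc : IsCyclic P) (hN : NormIn N A) (hN1 : N ≠ ⊥)
    (hNs : Group.IsSolvable N) :
    ∃ z ∈ P, z ≠ 1 ∧ ∀ a ∈ A, a * z * a⁻¹ ∈ Subgroup.zpowers z := by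
  obtain ⟨M, hM, hM1, hMp⟩ := exists_normal_pgroup (p := p) (A := A)
    (fun N hN hc => Cfsg.Agent.Lib.Helper63.QB.eq_bot_of_normIn_coprime hA hN hc) _ N rfl hN hN1 hNs
  have hMP : M ≤ P := le_of_normIn_pgroup hP hM hMp
  have hcM : IsCyclic (M.subgroupOf P) := inferInstance
  obtain ⟨g₀, hg₀⟩ := hcM.exists_generator
  have hgen : ∀ x ∈ M, x ∈ Subgroup.zpowers ((g₀ : P) : V ≃ₗ[ZMod q] V) := by
    intro x hx
    obtain ⟨n, hn⟩ := Subgroup.mem_zpowers_iff.1
      (hg₀ ⟨⟨x, hMP hx⟩, Subgroup.mem_subgroupOf.2 hx⟩)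
    refine Subgroup.mem_zpowers_iff.2 ⟨n, ?_⟩
    have := congrArg (fun y : M.subgroupOf P => ((y : P) : V ≃ₗ[ZMod q] V)) hn
    simpa using this
  refine ⟨((g₀ : P) : V ≃ₗ[ZMod q] V), (g₀ : P).2, fun h1 => hM1 ?_, fun a ha => ?_⟩
  · rw [eq_bot_iff]
    intro x hx
    have := hgen x hx
    rw [h1, Subgroup.zpowers_one_eq_bot] at this
    exact this
  · exact hgen _ (hM.2 a ha _ (Subgroup.mem_subgroupOf.1 g₀.2))

end Cfsg.Agent.Lib.Helper98.QB
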