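import Mathlib
import Cfsg.Agent.Lib.Helper61.QB.Defs

set_option autoImplicit false

namespace Cfsg.Agent.Lib.Helper98.QB

open Cfsg.Agent.Lib.Helper61.QB

universe u

variable {q p : ℕ} [Fact q.Prime] [Fact p.Prime] {V : Type u} [AddCommGroup V] [Module (ZMod q) V]
  [Finite V]

/-- [X7h] -/
theorem exists_central_of_two {P : Subgroup (V ≃ₗ[ZMod q] V)} (hP1 : P ≠ ⊥) (hPp : IsPGroup 2 P)
    (hsr : Semireg P) : ∃ z ∈ P, z ≠ 1 ∧ ∀ a : V ≃ₗ[ZMod q] V, a * z = z * a := by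
  have hnt : Nontrivial P := (Subgroup.nontrivial_iff_ne_bot P).2 hP1
  obtain ⟨k, hk⟩ := IsPGroup.iff_card.1 hPp
  have hk0 : k ≠ 0 := by
    rintro rfl
    have h1 : 1 < Nat.card P := Finite.one_lt_card
    rw [hk] at h1
    simp at h1
  have h2 : 2 ∣ Nat.card P := hk ▸ dvd_pow_self 2 hk0
  obtain ⟨z, hz⟩ := exists_prime_orderOf_dvd_card' 2 h2
  have hz1 : (z : V ≃ₗ[ZMod q] V) ≠ 1 := by
    intro h
    have : z = 1 := Subtype.ext h
    rw [this, orderOf_one] at hz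
    norm_num at hz
  have hzz : (z : V ≃ₗ[ZMod q] V) * z = 1 := by
    have h3 : z ^ 2 = 1 := hz ▸ pow_orderOf_eq_one z
    have h4 := congrArg Subtype.val h3
    simpa [sq] using h4
  have hzz' : ∀ v, (z : V ≃ₗ[ZMod q] V) ((z : V ≃ₗ[ZMod q] V) v) = v := by
    intro v
    have := congrArg (fun f : V ≃ₗ[ZMod q] V => f v) hzz
    simpa using this
  have hneg : ∀ v, (z : V ≃ₗ[ZMod q] V) v = -v := by
    intro v
    have h5 := hsr z z.2 hz1 (v + (z : V ≃ₗ[ZMod q] V) v) (by rw [map_add, hzz', add_comm])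
    exact (neg_eq_of_add_eq_zero_right h5).symm
  refine ⟨z, z.2, hz1, fun a => ?_⟩
  ext v
  simp [hneg]

end Cfsg.Agent.Lib.Helper98.QB
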